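import Cfsg.Agent.Chars.Basic
import Cfsg.Prelude.Def_Blocks

/-!
A noncentral element at which exactly one nonlinear irreducible character is nonzero: what the
column orthogonality relations give.
-/

set_option autoImplicit false

namespace CfsgLib.OneSeen

open Cfsg CfsgLib.Chars
open scoped ComplexConjugate

universe u

variable {G : Type u} [Group G]

/-- The hypotheses. -/
structure Hyp (g : G) (χ : IrrCharacter G) : Prop where
  notCenter : g ∉ Subgroup.center G
  nonlinear : (χ : G → ℂ) 1 ≠ 1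
  ne_zero : (χ : G → ℂ) g ≠ 0
  other : ∀ ψ : IrrCharacter G, (ψ : G → ℂ) 1 ≠ 1 → ψ ≠ χ → (ψ : G → ℂ) g = 0

variable [Finite G] {g : G} {χ : IrrCharacter G}

open scoped Classical in
theorem linear_column (g x : G) :
    ∑ ψ ∈ Finset.univ.filter (fun ψ : IrrCharacter G => (ψ : G → ℂ) 1 = 1),
      (ψ : G → ℂ) g * conj ((ψ : G → ℂ) x) =
      if (g : G ⧸ commutator G) = x then ((commutator G).index : ℂ) else 0 := by
  have h := sum_inflate (commutator G) (fun ψ : IrrCharacter G => (ψ : G → ℂ) g * conj ((ψ : G → ℂ) x))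
  simp only [inflate_apply] at h
  rw [sum_irr_mul_conj] at h
  have hc : ∀ a b : G ⧸ commutator G, a * b = b * a := fun a b => mul_comm (G := Abelianization G) a b
  have hi : IsConj (g : G ⧸ commutator G) (x : G ⧸ commutator G) ↔
      (g : G ⧸ commutator G) = (x : G ⧸ commutator G) := by
    rw [isConj_iff]
    constructor
    · rintro ⟨c, hc'⟩
      rwa [hc c, mul_inv_cancel_right] at hc'
    · intro h'
      exact ⟨1, by rw [one_mul, inv_one, mul_one, h']⟩
  have hC : Subgroup.centralizer ({(g : G ⧸ commutator G)} : Set (G ⧸ commutator G)) = ⊤ :=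
    eq_top_iff.2 fun a _ => Subgroup.mem_centralizer_singleton_iff.2 (hc a _)
  rw [hC, Subgroup.card_top, ← Subgroup.index_eq_card] at h
  simp only [hi] at h
  rw [h]
  exact Finset.sum_congr (Finset.filter_congr fun ψ _ => (commutator_le_charKer_iff ψ).symm)
    fun _ _ => rfl

variable (h : Hyp g χ)
include h

open scoped Classical in
theorem Hyp.column (x : G) :
    (if (g : G ⧸ commutator G) = x then ((commutator G).index : ℂ) else 0) +
      (χ : G → ℂ) g * conj ((χ : G → ℂ) x) =
      if IsConj g x then (Nat.card (Subgroup.centralizer ({g} : Set G)) : ℂ) else 0 := by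
  rw [← sum_irr_mul_conj g x, ← Finset.sum_filter_add_sum_filter_not Finset.univ
    (fun ψ : IrrCharacter G => (ψ : G → ℂ) 1 = 1), linear_column]
  congr 1
  rw [Finset.sum_eq_single_of_mem χ (Finset.mem_filter.2 ⟨Finset.mem_univ _, h.nonlinear⟩)]
  intro ψ hψ hne
  rw [h.other ψ (Finset.mem_filter.1 hψ).2 hne, zero_mul]

theorem Hyp.ne_one : g ≠ 1 := fun e => h.notCenter (e ▸ one_mem _)

theorem Hyp.mem_commutator : g ∈ commutator G := by
  classical
  by_contra hg
  have h1 := h.column 1
  rw [if_neg (fun e => hg ((QuotientGroup.eq_one_iff g).1 (e.trans (QuotientGroup.mk_one _)))),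
    if_neg (fun e => h.ne_one (isConj_one_left.mp e)), zero_add,
    conj_map_one (isCharacter_coe χ)] at h1
  exact (mul_eq_zero.1 h1).elim h.ne_zero (map_one_ne_zero χ)

theorem Hyp.mk_eq_iff (x : G) : (g : G ⧸ commutator G) = x ↔ x ∈ commutator G := by
  rw [(QuotientGroup.eq_one_iff g).2 h.mem_commutator, eq_comm, QuotientGroup.eq_one_iff]

theorem Hyp.apply_eq : (χ : G → ℂ) g = -(((commutator G).index : ℂ) / (χ : G → ℂ) 1) := by
  classical
  have h1 := h.column 1
  rw [if_pos ((h.mk_eq_iff 1).2 (one_mem _)), if_neg (fun e => h.ne_one (isConj_one_left.mp e)),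
    conj_map_one (isCharacter_coe χ)] at h1
  field_simp [map_one_ne_zero χ]
  linear_combination h1

theorem Hyp.apply_outside {x : G} (hx : x ∉ commutator G) : (χ : G → ℂ) x = 0 := by
  classical
  have h1 := h.column x
  have hn : ¬ IsConj g x := fun e => by
    obtain ⟨c, rfl⟩ := isConj_iff.1 e
    exact hx (Subgroup.Normal.conj_mem inferInstance g h.mem_commutator c)
  rw [if_neg (fun e => hx ((h.mk_eq_iff x).1 e)), if_neg hn, zero_add] at h1
  have h2 := (mul_eq_zero.1 h1).resolve_left h.ne_zero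
  simpa using congrArg conj h2

theorem Hyp.apply_inside {x : G} (hx : x ∈ commutator G) (hc : ¬ IsConj g x) :
    (χ : G → ℂ) x = (χ : G → ℂ) 1 := by
  classical
  have h1 := h.column x
  rw [if_pos ((h.mk_eq_iff x).2 hx), if_neg hc, h.apply_eq] at h1
  have h2 : conj ((χ : G → ℂ) x) = (χ : G → ℂ) 1 := by
    have ha : ((commutator G).index : ℂ) ≠ 0 := Nat.cast_ne_zero.2 Subgroup.index_ne_zero_of_finite
    field_simp [map_one_ne_zero χ] at h1
    have : ((commutator G).index : ℂ) * ((χ : G → ℂ) 1 - conj ((χ : G → ℂ) x)) = 0 := by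
      linear_combination h1
    exact (sub_eq_zero.1 ((mul_eq_zero.1 this).resolve_left ha)).symm
  have h3 := congrArg conj h2
  rwa [Complex.conj_conj, conj_map_one (isCharacter_coe χ)] at h3

theorem Hyp.charKer_le : charKer (χ : G → ℂ) ≤ commutator G := fun x hx => by
  by_contra hn
  exact map_one_ne_zero χ ((map_eq_map_one_of_mem_charKer hx).symm.trans (h.apply_outside hn))

theorem Hyp.not_mem_charKer : g ∉ charKer (χ : G → ℂ) := by
  intro hg
  have h1 := map_eq_map_one_of_mem_charKer hg
  rw [h.apply_eq, ← coe_charDegree χ, neg_eq_iff_add_eq_zero,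
    div_add' _ _ _ (Nat.cast_ne_zero.2 (charDegree_pos χ).ne'), div_eq_zero_iff] at h1
  rcases h1 with h1 | h1
  · norm_cast at h1
    have := Subgroup.index_ne_zero_of_finite (H := commutator G)
    omega
  · exact (charDegree_pos χ).ne' (by exact_mod_cast h1)

theorem Hyp.isConj_iff_mem {x : G} :
    IsConj g x ↔ x ∈ commutator G ∧ x ∉ charKer (χ : G → ℂ) := by
  constructor
  · intro e
    obtain ⟨c, rfl⟩ := isConj_iff.1 e
    refine ⟨Subgroup.Normal.conj_mem inferInstance g h.mem_commutator c, fun hk => h.not_mem_charKer ?_⟩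
    have := Subgroup.Normal.conj_mem (inferInstance : (charKer (χ : G → ℂ)).Normal) _ hk c⁻¹
    simpa [mul_assoc] using this
  · rintro ⟨hx, hk⟩
    by_contra hc
    exact hk ((mem_charKer_iff (isCharacter_coe χ)).2 (h.apply_inside hx hc))

theorem Hyp.commutator_eq : (commutator G : Set G) =
    {x : G | (χ : G → ℂ) x = (χ : G → ℂ) 1} ∪ {x : G | IsConj g x} := by
  ext x
  constructor
  · intro hx
    by_cases hk : x ∈ charKer (χ : G → ℂ)
    · exact Or.inl (map_eq_map_one_of_mem_charKer hk)
    · exact Or.inr (h.isConj_iff_mem.2 ⟨hx, hk⟩)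
  · rintro (hx | hx)
    · exact h.charKer_le ((mem_charKer_iff (isCharacter_coe χ)).2 hx)
    · exact (h.isConj_iff_mem.1 hx).1

theorem Hyp.eq_of_le (ψ : IrrCharacter G) (hψ : (ψ : G → ℂ) 1 ≠ 1)
    (hle : charKer (χ : G → ℂ) ≤ charKer (ψ : G → ℂ)) : ψ = χ := by
  classical
  haveI := Fintype.ofFinite G
  by_contra hne
  have h1 := classInner_of_ne hne
  rw [classInner, mul_eq_zero, or_iff_right (inv_ne_zero natCard_ne_zero)] at h1
  have hterm : ∀ x : G, (ψ : G → ℂ) x * conj ((χ : G → ℂ) x) =
      if x ∈ charKer (χ : G → ℂ) then (ψ : G → ℂ) 1 * (χ : G → ℂ) 1 else 0 := by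
    intro x
    split_ifs with hx
    · rw [map_eq_map_one_of_mem_charKer (hle hx), map_eq_map_one_of_mem_charKer hx,
        conj_map_one (isCharacter_coe χ)]
    · by_cases hD : x ∈ commutator G
      · rw [eq_of_isConj (isClassFunction_coe ψ) (h.isConj_iff_mem.2 ⟨hD, hx⟩).symm, h.other ψ hψ hne,
          zero_mul]
      · rw [h.apply_outside hD, map_zero, mul_zero]
  rw [Finset.sum_congr rfl (fun x _ => hterm x), Finset.sum_ite, Finset.sum_const_zero, add_zero,
    Finset.sum_const, nsmul_eq_mul] at h1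
  rcases mul_eq_zero.1 h1 with h2 | h2
  · rw [Nat.cast_eq_zero, Finset.card_eq_zero, Finset.filter_eq_empty_iff] at h2
    exact h2 (Finset.mem_univ 1) (one_mem _)
  · exact (mul_eq_zero.1 h2).elim (map_one_ne_zero ψ) (map_one_ne_zero χ)

/-- The squares of the degrees in the quotient by the kernel. -/
theorem Hyp.index_charKer :
    (charKer (χ : G → ℂ)).index = (commutator G).index + charDegree (χ : G → ℂ) ^ 2 := by
  classical
  rw [← sum_charDegree_sq_of_le_charKer (charKer (χ : G → ℂ)), ← Finset.sum_filter_add_sum_filter_not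
    (Finset.univ.filter fun ψ : IrrCharacter G => charKer (χ : G → ℂ) ≤ charKer (ψ : G → ℂ))
    (fun ψ : IrrCharacter G => (ψ : G → ℂ) 1 = 1)]
  congr 1
  · rw [Finset.filter_filter, Finset.sum_congr rfl (g := fun _ => 1) (fun ψ hψ => by
      rw [(charDegree_eq_one_iff ψ).mpr (Finset.mem_filter.mp hψ).2.2, one_pow]),
      Finset.sum_const, smul_eq_mul, mul_one, ← card_linear_irr, Nat.card_eq_fintype_card,
      Fintype.card_subtype]
    congr 1
    refine Finset.filter_congr fun ψ _ => ?_
    exact ⟨fun h' => h'.2, fun h' => ⟨h.charKer_le.trans ((commutator_le_charKer_iff ψ).2 h'), h'⟩⟩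
  · refine (Finset.sum_eq_single_of_mem χ ?_ ?_).trans rfl
    · simp [h.nonlinear]
    · intro ψ hψ hne
      simp only [Finset.mem_filter, Finset.mem_univ, true_and] at hψ
      exact absurd (h.eq_of_le ψ hψ.2 hψ.1) hne

/-- A character value squared: the column of an element outside the derived subgroup modulo the kernel. -/
theorem Hyp.card_centralizer_quotient {u : G} (hu : u ∉ commutator G) :
    Nat.card (Subgroup.centralizer ({(u : G ⧸ charKer (χ : G → ℂ))} : Set (G ⧸ charKer (χ : G → ℂ)))) =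
      (commutator G).index := by
  classical
  have h1 := sum_irr_mul_conj (u : G ⧸ charKer (χ : G → ℂ)) (u : G ⧸ charKer (χ : G → ℂ))
  rw [if_pos (IsConj.refl _)] at h1
  have h2 := sum_inflate (charKer (χ : G → ℂ))
    (fun ψ : IrrCharacter G => (ψ : G → ℂ) u * conj ((ψ : G → ℂ) u))
  simp only [inflate_apply] at h2
  rw [h1, ← Finset.sum_filter_add_sum_filter_not _ (fun ψ : IrrCharacter G => (ψ : G → ℂ) 1 = 1)] at h2
  have h3 := linear_column u u
  rw [if_pos rfl] at h3
  rw [Finset.filter_filter, Finset.sum_eq_zero (s := Finset.filter _ (Finset.filter _ _)) (fun ψ hψ => by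
    simp only [Finset.mem_filter, Finset.mem_univ, true_and] at hψ
    rw [h.eq_of_le ψ hψ.2 hψ.1, h.apply_outside hu, zero_mul]), add_zero,
    Finset.filter_congr (q := fun ψ : IrrCharacter G => (ψ : G → ℂ) 1 = 1) (fun ψ _ =>
      ⟨fun h' => h'.2, fun h' => ⟨h.charKer_le.trans ((commutator_le_charKer_iff ψ).2 h'), h'⟩⟩), h3] at h2
  exact_mod_cast h2

end CfsgLib.OneSeen
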